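import Mathlib
import Cfsg.Agent.H464.PermIrr

/-!
# S4612, row PSL, [PSL-D1a] (helper423): a chain of permutation characters

* `chain_of_orbits` : if `X 0, ..., X N` are finite `G`-sets such that `G` has `j + 1` orbits on `X j × X k` for
  `j ≤ k` and `|X k| < |X (k + 1)|`, then there are different irreducible characters `χ 0, ..., χ N` such that the
  permutation character on `X k` is `χ 0 + ... + χ k`.
-/

set_option autoImplicit false

namespace Cfsg.Agent.H423.PQ

open Cfsg Module MulAction
open Cfsg.Agent.Characters.Core Cfsg.Agent.H464.PermIrr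

universe u v

theorem chain_of_orbits {G : Type u} [Group G] [Finite G] (X : ℕ → Type v) [∀ k, MulAction G (X k)]
    [∀ k, Finite (X k)] (N : ℕ)
    (horb : ∀ j k : ℕ, j ≤ k → k ≤ N → Nat.card (orbitRel.Quotient G (X j × X k)) = j + 1)
    (hlt : ∀ k < N, Nat.card (X k) < Nat.card (X (k + 1))) :
    ∃ χ : ℕ → IrrCharacter G, (∀ i j, i ≤ N → j ≤ N → χ i = χ j → i = j) ∧
      ∀ k ≤ N, ∀ g : G, (Nat.card (fixedBy (X k) g) : ℂ) = ∑ i ∈ Finset.range (k + 1), (χ i : G → ℂ) g := by
  classical
  have := Fintype.ofFinite G
  -- the inner products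
  have hin : ∀ j k : ℕ, j ≤ k → k ≤ N → classInner (pc G (X j)) (pc G (X k)) = j + 1 := by
    intro j k hjk hk
    rw [classInner_pc, horb j k hjk hk]
    push_cast
    rfl
  have hin' : ∀ j k : ℕ, j ≤ k → k ≤ N → classInner (pc G (X k)) (pc G (X j)) = j + 1 := by
    intro j k hjk hk
    rw [← classInner_conj_symm, hin j k hjk hk, map_add, map_natCast, map_one]
  -- the constituents
  let D : ℕ → G → ℂ := fun k => if k = 0 then pc G (X 0) else pc G (X k) - pc G (X (k - 1))
  have hD0 : D 0 = pc G (X 0) := if_pos rfl
  have hDs : ∀ k, D (k + 1) = pc G (X (k + 1)) - pc G (X k) := fun k => if_neg (Nat.succ_ne_zero k)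
  have hirr : ∀ k, k ≤ N → IsIrrCharacter G (D k) := by
    intro k hk
    rcases k with _ | k
    · rw [hD0]
      refine isIrr_of_classInner_self (isCharacter_pc G (X 0)) ?_
      rw [hin 0 0 le_rfl (Nat.zero_le _)]
      simp
    · rw [hDs]
      have h1 : classInner (pc G (X (k + 1)) - pc G (X k)) (pc G (X (k + 1)) - pc G (X k)) = 1 := by
        simp only [classInner_sub_left, classInner_sub_right]
        rw [hin (k + 1) (k + 1) le_rfl hk, hin' k (k + 1) (Nat.le_succ k) hk, hin k (k + 1) (Nat.le_succ k) hk,
          hin k k le_rfl (by omega)]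
        push_cast
        ring
      rcases isIrr_of_generalized (G := G) ⟨_, _, isCharacter_pc G (X (k + 1)), isCharacter_pc G (X k), rfl⟩ h1
        with h | h
      · exact h
      · exfalso
        obtain ⟨n, hn, hn'⟩ := isIrr_apply_one h
        rw [Pi.neg_apply, Pi.sub_apply, pc_one, pc_one] at hn'
        have h3 : (Nat.card (X k) : ℂ) = Nat.card (X (k + 1)) + n := by linear_combination hn'
        have h4 : Nat.card (X k) = Nat.card (X (k + 1)) + n := by exact_mod_cast h3
        have := hlt k (by omega)
        omega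
  -- orthogonality
  have hort : ∀ i j, i < j → j ≤ N → classInner (D i) (D j) = 0 := by
    intro i j hij hj
    obtain ⟨j, rfl⟩ : ∃ j', j = j' + 1 := ⟨j - 1, by omega⟩
    rcases i with _ | i
    · rw [hD0, hDs, classInner_sub_right, hin 0 (j + 1) (Nat.zero_le _) hj, hin 0 j (Nat.zero_le _) (by omega)]
      ring
    · rw [hDs, hDs]
      simp only [classInner_sub_left, classInner_sub_right]
      rw [hin (i + 1) (j + 1) (by omega) hj, hin (i + 1) j (by omega) (by omega), hin i (j + 1) (by omega) hj,
        hin i j (by omega) (by omega)]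
      push_cast
      ring
  refine ⟨fun k => if h : k ≤ N then ⟨D k, hirr k h⟩ else ⟨D 0, hirr 0 (Nat.zero_le _)⟩, ?_, ?_⟩
  · intro i j hi hj h
    simp only [dif_pos hi, dif_pos hj] at h
    have h1 : D i = D j := congrArg Subtype.val h
    rcases lt_trichotomy i j with hij | hij | hij
    · exfalso
      have h2 := hort i j hij hj
      rw [h1, classInner_irr_self (hirr j hj)] at h2
      exact one_ne_zero h2
    · exact hij
    · exfalso
      have h2 := hort j i hij hi
      rw [← h1, classInner_irr_self (hirr i hi)] at h2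
      exact one_ne_zero h2
  · intro k hk g
    have h1 : ∀ i ∈ Finset.range (k + 1), ((if h : i ≤ N then ⟨D i, hirr i h⟩ else
        ⟨D 0, hirr 0 (Nat.zero_le _)⟩ : IrrCharacter G) : G → ℂ) g = D i g := by
      intro i hi
      have := Finset.mem_range.1 hi
      rw [dif_pos (show i ≤ N by omega)]
    rw [Finset.sum_congr rfl h1]
    clear h1 hk
    change pc G (X k) g = _
    induction k with
    | zero => rw [Finset.sum_range_one, hD0]
    | succ k ih =>
      rw [Finset.sum_range_succ, ← ih, hDs, Pi.sub_apply]
      ring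

end Cfsg.Agent.H423.PQ
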